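import Mathlib

/-! # A genus inequality for permutations with product one -/

set_option autoImplicit false

namespace Cfsg.Agent.Lib.TripleGen

open Module

variable {X : Type*} [Fintype X] [DecidableEq X]

/-- A permutation as a linear map on functions. -/
def permLin (g : Equiv.Perm X) : (X → ℚ) →ₗ[ℚ] (X → ℚ) := LinearMap.funLeft ℚ ℚ g.symm

omit [Fintype X] [DecidableEq X] in
theorem permLin_apply (g : Equiv.Perm X) (v : X → ℚ) (x : X) :
    permLin g v x = v (g.symm x) := rfl

omit [Fintype X] [DecidableEq X] in
theorem permLin_mul (g h : Equiv.Perm X) : permLin (g * h) = permLin g ∘ₗ permLin h := rfl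

omit [Fintype X] [DecidableEq X] in
theorem permLin_one : permLin (1 : Equiv.Perm X) = LinearMap.id := rfl

/-- The moved part. -/
def moved (g : Equiv.Perm X) : Submodule ℚ (X → ℚ) :=
  LinearMap.range (LinearMap.id - permLin g)

/-- A lower bound for the orbits bounds the moved part. -/
theorem finrank_moved_le (g : Equiv.Perm X) {p : ℕ} (hp : orderOf g = p) {f c : ℕ}
    (hf : f ≤ (Finset.univ.filter fun x => g x = x).card)
    (hc : (c - 1) * p < Fintype.card X + (p - 1) * f) :
    finrank ℚ (moved g) + c ≤ Fintype.card X := by
  classical
  let Z := Subgroup.zpowers g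
  let Ω := MulAction.orbitRel.Quotient Z X
  -- counting the orbits
  have hΩ : Fintype.card X + (p - 1) * f ≤ Fintype.card Ω * p := by
    have h := MulAction.sum_card_fixedBy_eq_card_orbits_mul_card_group Z X
    have hZ : Fintype.card Z = p := by
      rw [← Nat.card_eq_fintype_card, Nat.card_zpowers, hp]
    have hle : ∀ z ∈ (Finset.univ : Finset Z).erase 1,
        f ≤ Fintype.card (MulAction.fixedBy X z) := by
      intro z _
      refine hf.trans (le_of_eq_of_le ?_ (Fintype.card_le_of_injective
        (fun x : {x // g x = x} => (⟨x.1, ?_⟩ : MulAction.fixedBy X z))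
        fun a b h => Subtype.ext (congrArg (fun y : MulAction.fixedBy X z => y.1) h)))
      · rw [Fintype.card_subtype]
      · obtain ⟨k, hk⟩ := z.2
        show (z : Equiv.Perm X) x.1 = x.1
        rw [← hk]
        exact Function.IsFixedPt.perm_zpow x.2 k
    have hone : Fintype.card (MulAction.fixedBy X (1 : Z)) = Fintype.card X :=
      Fintype.card_congr (Equiv.subtypeUnivEquiv fun x => one_smul Z x)
    rw [← Finset.add_sum_erase _ _ (Finset.mem_univ (1 : Z)), hone, hZ] at h
    have hs := Finset.card_nsmul_le_sum _ _ f hle
    rw [Finset.card_erase_of_mem (Finset.mem_univ _), Finset.card_univ, hZ, smul_eq_mul] at hs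
    calc _ ≤ _ := Nat.add_le_add_left hs _
      _ = _ := h
  have hcΩ : c ≤ Fintype.card Ω := by
    by_contra hlt
    have := Nat.mul_le_mul_right p (show Fintype.card Ω ≤ c - 1 by omega)
    omega
  -- orbit functions are fixed
  let inc : (Ω → ℚ) →ₗ[ℚ] LinearMap.ker (LinearMap.id - permLin g) :=
    LinearMap.codRestrict _ (LinearMap.funLeft ℚ ℚ (Quotient.mk (MulAction.orbitRel Z X)))
      fun v => by
        rw [LinearMap.mem_ker, LinearMap.sub_apply, sub_eq_zero]
        funext x
        show v (Quotient.mk (MulAction.orbitRel Z X) x) =
          v (Quotient.mk (MulAction.orbitRel Z X) (g.symm x))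
        refine congrArg v (Quotient.sound ?_)
        exact ⟨⟨g, Subgroup.mem_zpowers g⟩, g.apply_symm_apply x⟩
  have hinj : Function.Injective inc := fun v w h => by
    funext o
    obtain ⟨x, rfl⟩ := Quotient.exists_rep o
    exact congrFun (congrArg Subtype.val h) x
  have h1 := LinearMap.finrank_le_finrank_of_injective hinj
  rw [Module.finrank_pi] at h1
  have h2 := (LinearMap.id - permLin g).finrank_range_add_finrank_ker
  rw [Module.finrank_pi] at h2
  have h3 : finrank ℚ (moved g) + finrank ℚ (LinearMap.ker (LinearMap.id - permLin g)) =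
      Fintype.card X := h2
  have h4 : Fintype.card Ω ≤ finrank ℚ (LinearMap.ker (LinearMap.id - permLin g)) := h1
  clear h1 h2
  omega

/-- Scott's inequality: permutations with product one whose group is transitive away from one
point `a`. -/
theorem scott {x y z : Equiv.Perm X} (hxyz : x * y * z = 1) (a b : X)
    (hx : x a = a) (hy : y a = a)
    (ht : ∀ q, q ≠ a → ∃ g ∈ Subgroup.closure ({x, y} : Set (Equiv.Perm X)), g b = q) :
    2 * Fintype.card X ≤
      finrank ℚ (moved x) + finrank ℚ (moved y) + finrank ℚ (moved z) + 4 := by
  classical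
  let dx := LinearMap.id - permLin x
  let dy := LinearMap.id - permLin y
  let dz := LinearMap.id - permLin z
  let φ : (moved x × moved y × moved z) →ₗ[ℚ] (X → ℚ) :=
    LinearMap.coprod (moved x).subtype
      (LinearMap.coprod (permLin x ∘ₗ (moved y).subtype) (permLin x ∘ₗ permLin y ∘ₗ (moved z).subtype))
  let ψ : (X → ℚ) →ₗ[ℚ] (moved x × moved y × moved z) :=
    dx.rangeRestrict.prod (dy.rangeRestrict.prod dz.rangeRestrict)
  have hcomp : LinearMap.range ψ ≤ LinearMap.ker φ := by
    rintro _ ⟨v, rfl⟩
    rw [LinearMap.mem_ker]
    show dx v + (permLin x (dy v) + permLin x (permLin y (dz v))) = 0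
    simp only [dx, dy, dz, LinearMap.sub_apply, LinearMap.id_apply, map_sub]
    rw [show permLin x (permLin y (permLin z v)) = v by
      rw [← LinearMap.comp_apply, ← LinearMap.comp_apply, ← permLin_mul, ← permLin_mul,
        hxyz, permLin_one]; rfl]
    abel
  have hψ : Fintype.card X ≤ finrank ℚ (LinearMap.range ψ) + 2 := by
    let ev : LinearMap.ker ψ →ₗ[ℚ] ℚ × ℚ :=
      ((LinearMap.proj a).prod (LinearMap.proj b)) ∘ₗ (LinearMap.ker ψ).subtype
    have hev : Function.Injective ev := by
      rw [← LinearMap.ker_eq_bot, LinearMap.ker_eq_bot']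
      rintro ⟨v, hv⟩ he
      rw [Prod.ext_iff] at he
      have hva : v a = 0 := he.1
      have hvb : v b = 0 := he.2
      rw [LinearMap.mem_ker] at hv
      have hvx : permLin x v = v :=
        (sub_eq_zero.1 (congrArg (fun t : moved x × moved y × moved z => (t.1 : X → ℚ)) hv)).symm
      have hvy : permLin y v = v :=
        (sub_eq_zero.1 (congrArg (fun t : moved x × moved y × moved z => (t.2.1 : X → ℚ)) hv)).symm
      have hinv : ∀ g ∈ Subgroup.closure ({x, y} : Set (Equiv.Perm X)), permLin g v = v := by
        intro g hg
        induction hg using Subgroup.closure_induction with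
        | mem g hg => rcases hg with rfl | rfl <;> assumption
        | one => rw [permLin_one]; rfl
        | mul g h _ _ ihg ihh => rw [permLin_mul, LinearMap.comp_apply, ihh, ihg]
        | inv g _ ihg =>
          conv_lhs => rw [← ihg, ← LinearMap.comp_apply, ← permLin_mul, inv_mul_cancel, permLin_one]
          rfl
      apply Subtype.ext
      funext q
      show v q = 0
      by_cases hq : q = a
      · rw [hq, hva]
      obtain ⟨g, hg, rfl⟩ := ht q hq
      have h := congrFun (hinv g hg) (g b)
      rw [permLin_apply, Equiv.symm_apply_apply] at h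
      rw [← h, hvb]
    have h1 := LinearMap.finrank_le_finrank_of_injective hev
    rw [Module.finrank_prod, Module.finrank_self] at h1
    have h2 := ψ.finrank_range_add_finrank_ker
    rw [Module.finrank_pi] at h2
    omega
  have hφ : Fintype.card X ≤ finrank ℚ (LinearMap.range φ) + 2 := by
    set R := LinearMap.range φ
    let S : Submodule ℚ (X → ℚ) := Submodule.span ℚ ({Pi.single a 1, Pi.single b 1} : Set (X → ℚ))
    have hRx : ∀ v, v - permLin x v ∈ R := fun v =>
      ⟨(dx.rangeRestrict v, 0, 0), by
        show dx v + (permLin x 0 + permLin x (permLin y 0)) = _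
        simp [dx]⟩
    have hRy : ∀ v, v - permLin y v ∈ R := fun v => by
      have h1 : v - permLin x v ∈ R := hRx v
      have h2 : permLin x v - permLin x (permLin y v) ∈ R :=
        ⟨(0, dy.rangeRestrict v, 0), by
          show 0 + (permLin x (dy v) + permLin x (permLin y 0)) = _
          simp [dy]⟩
      have h3 : permLin y v - permLin x (permLin y v) ∈ R := hRx _
      have := sub_mem (add_mem h1 h2) h3
      convert this using 1
      abel
    have hall : ∀ g ∈ Subgroup.closure ({x, y} : Set (Equiv.Perm X)), ∀ v, v - permLin g v ∈ R := by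
      intro g hg
      induction hg using Subgroup.closure_induction with
      | mem g hg => rcases hg with rfl | rfl <;> assumption
      | one => intro v; rw [permLin_one]; simp
      | mul g h _ _ ihg ihh =>
        intro v
        have := add_mem (ihh v) (ihg (permLin h v))
        rw [permLin_mul, LinearMap.comp_apply]
        convert this using 1
        abel
      | inv g _ ihg =>
        intro v
        have := ihg (permLin g⁻¹ v)
        rw [← LinearMap.comp_apply, ← permLin_mul, mul_inv_cancel, permLin_one] at this
        convert neg_mem this using 1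
        simp
    have htop : R ⊔ S = ⊤ := by
      rw [eq_top_iff]
      intro v _
      rw [pi_eq_sum_univ' v]
      refine Submodule.sum_mem _ fun q _ => Submodule.smul_mem _ _ ?_
      have key : (Pi.single q (1 : ℚ) : X → ℚ) ∈ R ⊔ S := by
        by_cases hq : q = a
        · exact Submodule.mem_sup_right (Submodule.subset_span (by simp [hq]))
        obtain ⟨g, hg, rfl⟩ := ht q hq
        have h1 : (Pi.single b (1 : ℚ) : X → ℚ) ∈ S := Submodule.subset_span (by simp)
        have h2 := hall g hg (Pi.single b 1)
        have h3 : permLin g (Pi.single b (1 : ℚ)) = Pi.single (g b) 1 := by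
          funext t
          rw [permLin_apply, Pi.single_apply, Pi.single_apply]
          simp [Equiv.symm_apply_eq]
        rw [h3] at h2
        have := sub_mem (Submodule.mem_sup_right (S := R) h1) (Submodule.mem_sup_left (T := S) h2)
        simpa using this
      exact key
    have h1 := Submodule.finrank_add_le_finrank_add_finrank R S
    rw [htop, finrank_top, Module.finrank_pi] at h1
    have h2 : finrank ℚ S ≤ 2 := by
      have := finrank_span_finset_le_card (R := ℚ)
        ({Pi.single a 1, Pi.single b 1} : Finset (X → ℚ))
      rw [Finset.coe_insert, Finset.coe_singleton] at this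
      exact this.trans Finset.card_le_two
    omega
  have h3 := φ.finrank_range_add_finrank_ker
  have h4 := Submodule.finrank_mono hcomp
  rw [Module.finrank_prod, Module.finrank_prod] at h3
  omega

end Cfsg.Agent.Lib.TripleGen
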